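import Cfsg.Agent.S0969
import Cfsg.Agent.S4714
import Cfsg.Agent.S0968
import Cfsg.Agent.H595.Triple
import Cfsg.Agent.H700.DM.Defs
import Cfsg.Agent.Blocks.Deflate
import Cfsg.Agent.Blocks.Knorr
import Cfsg.Agent.Characters.CCBasic
import Cfsg.Agent.CharactersDeep.CosetAverage
import Cfsg.Agent.CharactersDeep.ExtUnique

/-!
# S4907, T3b (DM03): the invariant defect zero character (helper355)

`θ` a `G`-invariant irreducible character of the normal subgroup `M` with `θ(1) = |M|_p` and `χ` over `θ` with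
`χ(1) = |G|_p`: then `G` has an irreducible character of degree `|G/M|_p`.

* `exists_canonical` : canonical character of a block with central defect group;
* `twist_core` : the argument in the cover;
* `invariant_case`.
-/

set_option autoImplicit false
set_option linter.unusedSectionVars false
set_option linter.style.haveILetI false

namespace Cfsg.Agent.H355.DM

open Cfsg Cfsg.Agent.Characters.Core
open Cfsg.Agent.H700.DM (pt HasDeg)
open scoped ComplexConjugate

universe u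

section canonical

variable {X : Type u} [Group X] [Finite X]

/-- The canonical character: `D` central, `β(1)_p = |X : D|_p`. -/
theorem exists_canonical (p : ℕ) [hp : Fact p.Prime] (D : Subgroup X) (hD : IsPGroup p D)
    (hDZ : D ≤ Subgroup.center X) (β : IrrCharacter X)
    (hdeg : (charDegree (β : X → ℂ)).factorization p = D.index.factorization p) :
    ∃ ζ : IrrCharacter X, (∀ y ∈ D, (ζ : X → ℂ) y = (ζ : X → ℂ) 1) ∧
      ∀ x : X, ¬ p ∣ orderOf x → (ζ : X → ℂ) x = (β : X → ℂ) x := by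
  obtain ⟨M, hM⟩ := Cfsg.Agent.Blocks.Knorr.exists_isPModular p
  have hMp : M.IsPrime := hM.2.1.isPrime
  have hdef := (Cfsg.Agent.S0969.result p M hM D hD hDZ β hdeg).1
  have hG : D ⊔ Subgroup.centralizer (D : Set X) = ⊤ := by
    have : Subgroup.centralizer (D : Set X) = ⊤ := by
      rw [eq_top_iff]
      intro g _
      rw [Subgroup.mem_centralizer_iff]
      intro d hd
      exact (Subgroup.mem_center_iff.1 (hDZ hd) g).symm
    rw [this, sup_top_eq]
  have hB : IsPBlock M (blockOf M (β : X → ℂ)) := ⟨β, rfl⟩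
  obtain ⟨ζ, ⟨hζB, hζD⟩, -⟩ := (Cfsg.Agent.S0968.result p M hM D hD hG _ hB hdef).1
  refine ⟨ζ, hζD, fun x hx => ?_⟩
  obtain ⟨ξ, h1, -⟩ := ((Cfsg.Agent.S4714.result p M hM D hD hG _ hB hdef ζ hζB hζD).1 β).1
    (Cfsg.Agent.Blocks.Basic.mem_blockOf_self β)
  have hξ : (ξ : D → ℂ) 1 = 1 := by
    have hcomm : ∀ a b : D, a * b = b * a := fun a b =>
      Subtype.ext (Subgroup.mem_center_iff.1 (hDZ b.2) a)
    have : Fintype D := Fintype.ofFinite D
    exact Cfsg.Agent.Characters.CCBasic.irr_apply_one_of_comm hcomm ξ.2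
  have h2 := h1 1 x hx (by rw [Subgroup.coe_one]; exact Commute.one_left x)
  rw [Subgroup.coe_one, one_mul, hξ, one_mul] at h2
  exact h2.symm

end canonical

/-- the determinant of an irreducible representation on the centre -/
theorem exists_det {Δ : Type u} [Group Δ] [Finite Δ] {θ : Δ → ℂ} (hθ : IsIrrCharacter Δ θ) {d : ℕ} (hd : θ 1 = d) :
    ∃ (c : Subgroup.center Δ →* ℂˣ) (δ : Δ →* ℂˣ), (∀ (x : Δ) (z : Subgroup.center Δ), θ (x * z) = θ x * (c z : ℂ)) ∧
      ∀ z : Subgroup.center Δ, δ z = c z ^ d := by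
  obtain ⟨n, ρ, hρ, rfl⟩ := hθ
  have hn : n = d := by
    rw [Representation.char_one] at hd
    simpa using hd
  subst hn
  obtain ⟨c, hc⟩ := Cfsg.Agent.CharactersDeep.Extraspecial.exists_central_hom_rep ρ hρ
  refine ⟨c, MonoidHom.toHomUnits ((LinearMap.det : ((Fin n → ℂ) →ₗ[ℂ] (Fin n → ℂ)) →* ℂ).comp ρ), ?_, ?_⟩
  · intro x z
    change LinearMap.trace ℂ _ (ρ (x * z)) = LinearMap.trace ℂ _ (ρ x) * c z
    rw [map_mul, hc z]
    have : ρ x * ((c z : ℂ) • LinearMap.id) = (c z : ℂ) • ρ x := by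
      ext v; simp
    rw [this, map_smul, smul_eq_mul, mul_comm]
  · intro z
    apply Units.ext
    change LinearMap.det (ρ z) = _
    rw [hc z, LinearMap.det_smul, LinearMap.det_id, mul_one, Units.val_pow_eq_pow_val]
    simp

section core

variable {Δ : Type u} [Group Δ] [Finite Δ]

/-- the arithmetic of the exponents -/
theorem exists_exponents {p n a b : ℕ} (_hp : p.Prime) (hn : n.Coprime p) (hn0 : 0 < n) :
    ∃ j : ℕ, p ^ a ∣ j ∧ p ^ b * j ≡ 1 [MOD n] := by
  have h1 : Nat.Coprime (p ^ (a + b)) n := Nat.Coprime.pow_left _ hn.symm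
  have h2 : 0 < n.totient := Nat.totient_pos.2 hn0
  refine ⟨p ^ a * (p ^ (a + b)) ^ (n.totient - 1), dvd_mul_right _ _, ?_⟩
  have h3 : p ^ b * (p ^ a * (p ^ (a + b)) ^ (n.totient - 1)) = (p ^ (a + b)) ^ n.totient := by
    calc p ^ b * (p ^ a * (p ^ (a + b)) ^ (n.totient - 1))
        = (p ^ (a + b)) ^ (n.totient - 1) * p ^ (a + b) := by ring
      _ = (p ^ (a + b)) ^ (n.totient - 1 + 1) := (pow_succ _ _).symm
      _ = _ := by rw [Nat.sub_add_cancel h2]
  rw [h3]
  exact Nat.ModEq.pow_totient h1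

theorem twist_core (p : ℕ) [hp : Fact p.Prime] (Z N : Subgroup Δ) [hNn : N.Normal] [Fintype N]
    (hZ : Z ≤ Subgroup.center Δ) (hZN : Disjoint Z N) {θ χ : Δ → ℂ} (hθ : IsIrrCharacter Δ θ)
    (hθN : IsIrrCharacter N (fun n : N => θ n)) (hχ : IsIrrCharacter Δ χ) (hχZ : ∀ z ∈ Z, χ z = χ 1)
    (h0 : classInner (fun n : N => χ n) (fun n : N => θ n) ≠ 0) {b e : ℕ}
    (hθ1 : θ 1 = ((p ^ b : ℕ) : ℂ)) (hχ1 : χ 1 = ((p ^ e : ℕ) : ℂ))
    (hnum : e + (Nat.card Z).factorization p = b + N.index.factorization p) :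
    ∃ ζ : Δ → ℂ, IsIrrCharacter Δ ζ ∧ (∀ z ∈ Z, ζ z = ζ 1) ∧ ζ 1 = ((p ^ (e - b) : ℕ) : ℂ) := by
  classical
  haveI := Fintype.ofFinite Δ
  have hpp : p.Prime := hp.out
  -- Gallagher
  obtain ⟨η, hη, hηN, hmul⟩ :=
    Cfsg.Agent.CharactersDeep.CosetAverage.exists_irr_mul N θ hθ hθN χ hχ h0
  obtain ⟨β, hβ⟩ : ∃ β : IrrCharacter (Δ ⧸ N), η = (β : Δ ⧸ N → ℂ) ∘ QuotientGroup.mk := by
    refine Cfsg.Agent.Blocks.Deflate.exists_deflation N η hη ?_
    have h1 : ∀ n : N, η n = η 1 := fun n => by rw [← hηN n 1, mul_one]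
    rw [Finset.sum_congr rfl fun n _ => h1 n, Finset.sum_const, nsmul_eq_mul]
    exact mul_ne_zero (Nat.cast_ne_zero.2 (Finset.card_ne_zero.2 ⟨1, Finset.mem_univ _⟩))
      (isIrr_apply_one_ne_zero hη)
  -- degrees
  obtain ⟨m, hm0, hm⟩ := isIrr_apply_one hη
  have hdeg : p ^ b * m = p ^ e := by
    have h1 := congrFun hmul 1
    rw [Pi.mul_apply, hθ1, hχ1, hm] at h1
    exact_mod_cast h1.symm
  have hbe : b ≤ e := (Nat.pow_dvd_pow_iff_le_right hpp.one_lt).1 ⟨m, hdeg.symm⟩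
  have hm' : m = p ^ (e - b) := by
    apply Nat.eq_of_mul_eq_mul_left (pow_pos hpp.pos b)
    rw [hdeg, ← pow_add, Nat.add_sub_cancel' hbe]
  -- central homomorphisms
  obtain ⟨c, δ, hc, hδ⟩ := exists_det hθ hθ1
  obtain ⟨c', hc', -⟩ := Cfsg.Agent.CharactersDeep.Extraspecial.exists_central_hom hη
  have hcc : ∀ z : Subgroup.center Δ, (z : Δ) ∈ Z → (c z : ℂ) * (c' z : ℂ) = 1 := by
    intro z hz
    have h1 := congrFun hmul z
    rw [hχZ _ hz, Pi.mul_apply] at h1
    have h2 := hc 1 z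
    have h3 := hc' 1 z
    rw [one_mul] at h2 h3
    rw [h2, h3, congrFun hmul 1, Pi.mul_apply] at h1
    have h4 : θ 1 * η 1 ≠ 0 := mul_ne_zero (isIrr_apply_one_ne_zero hθ) (isIrr_apply_one_ne_zero hη)
    apply mul_left_cancel₀ h4
    rw [mul_one]
    linear_combination -h1
  -- the arithmetic
  set a := (Nat.card Z).factorization p with ha
  set n := Nat.card Z / p ^ a with hn
  have hZ0 : Nat.card Z ≠ 0 := Nat.card_pos.ne'
  have hnZ : p ^ a * n = Nat.card Z := Nat.ordProj_mul_ordCompl_eq_self _ _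
  have hncop : n.Coprime p := (Nat.coprime_ordCompl hpp hZ0).symm
  have hn0 : 0 < n := Nat.ordCompl_pos p hZ0
  obtain ⟨j, hj1, hj2⟩ := exists_exponents (a := a) (b := b) hpp hncop hn0
  set s := p ^ b * j with hs
  -- the p-part of Z
  obtain ⟨P⟩ := (inferInstance : Nonempty (Sylow p Z))
  have hcommZ : ∀ x y : Z, x * y = y * x := fun x y =>
    Subtype.ext (Subgroup.mem_center_iff.1 (hZ y.2) x)
  have hPmem : ∀ y : Z, y ^ p ^ a = 1 → y ∈ (P : Subgroup Z) := by
    intro y hy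
    have hPn : (P : Subgroup Z).Normal := ⟨fun x hx g => by rw [hcommZ g x, mul_assoc, mul_inv_cancel, mul_one]; exact hx⟩
    have hyp : IsPGroup p (Subgroup.zpowers y) := by
      rw [IsPGroup.iff_card]
      have h1 : Nat.card (Subgroup.zpowers y) ∣ p ^ a := by
        rw [Nat.card_zpowers]
        exact orderOf_dvd_of_pow_eq_one hy
      obtain ⟨k, -, hk⟩ := (Nat.dvd_prime_pow hpp).1 h1
      exact ⟨k, hk⟩
    obtain ⟨Q, hQ⟩ := hyp.exists_le_sylow
    haveI := Sylow.unique_of_normal P hPn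
    rw [Subsingleton.elim P Q]
    exact hQ (Subgroup.mem_zpowers y)
  let mk : Δ →* Δ ⧸ N := QuotientGroup.mk' N
  have hmks : Function.Surjective mk := QuotientGroup.mk'_surjective N
  let f : Z →* Δ ⧸ N := mk.comp Z.subtype
  have hf : Function.Injective f := by
    rw [injective_iff_map_eq_one]
    intro z hz
    have h1 : (z : Δ) ∈ N := (QuotientGroup.eq_one_iff _).1 hz
    exact Subtype.ext (Subgroup.disjoint_def.1 hZN z.2 h1)
  set D : Subgroup (Δ ⧸ N) := (P : Subgroup Z).map f with hD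
  have hcenter : ∀ z : Z, f z ∈ Subgroup.center (Δ ⧸ N) := by
    intro z
    rw [Subgroup.mem_center_iff]
    intro q
    obtain ⟨x, rfl⟩ := hmks q
    change mk x * mk z = mk z * mk x
    rw [← map_mul, ← map_mul, Subgroup.mem_center_iff.1 (hZ z.2) x]
  have hDZ : D ≤ Subgroup.center (Δ ⧸ N) := by
    rintro _ ⟨z, -, rfl⟩
    exact hcenter z
  have hDp : IsPGroup p D := P.isPGroup'.map f
  have hDcard : Nat.card D = p ^ a := by
    rw [hD, Subgroup.card_map_of_injective hf, Sylow.card_eq_multiplicity, ha]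
  have hDidx : D.index.factorization p = e - b := by
    have h1 : D.index * p ^ a = N.index := by
      rw [← hDcard, Subgroup.index_mul_card]
      rfl
    have h2 : D.index ≠ 0 := Subgroup.index_ne_zero_of_finite
    have h3 : (D.index * p ^ a).factorization p = N.index.factorization p := by rw [h1]
    rw [Nat.factorization_mul h2 (pow_pos hpp.pos a).ne', Finsupp.add_apply, Nat.Prime.factorization_pow hpp,
      Finsupp.single_eq_same] at h3
    omega
  have hβ1 : (β : Δ ⧸ N → ℂ) 1 = ((p ^ (e - b) : ℕ) : ℂ) := by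
    have h1 := congrFun hβ 1
    rw [hm, hm'] at h1
    exact h1.symm
  have hβdeg : (charDegree (β : Δ ⧸ N → ℂ)).factorization p = D.index.factorization p := by
    rw [Cfsg.Agent.Blocks.CentralProduct.charDegree_eq hβ1, hDidx, Nat.Prime.factorization_pow hpp,
      Finsupp.single_eq_same]
  obtain ⟨ζ, hζD, hζ⟩ := exists_canonical p D hDp hDZ β hβdeg
  obtain ⟨c₀, hc₀, -⟩ := Cfsg.Agent.CharactersDeep.Extraspecial.exists_central_hom ζ.2
  have hζ1 : (ζ : Δ ⧸ N → ℂ) 1 = ((p ^ (e - b) : ℕ) : ℂ) := by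
    rw [hζ 1 (by rw [orderOf_one]; exact hpp.not_dvd_one), hβ1]
  have hζmul : ∀ x y : Δ ⧸ N, y ∈ D → (ζ : Δ ⧸ N → ℂ) (x * y) = (ζ : Δ ⧸ N → ℂ) x := by
    intro x y hy
    have h1 := hc₀ 1 ⟨y, hDZ hy⟩
    have h2 := hc₀ x ⟨y, hDZ hy⟩
    rw [one_mul] at h1
    change (ζ : Δ ⧸ N → ℂ) y = _ at h1
    rw [hζD y hy] at h1
    have h3 : (c₀ ⟨y, hDZ hy⟩ : ℂ) = 1 := by
      have h4 : (ζ : Δ ⧸ N → ℂ) 1 ≠ 0 := isIrr_apply_one_ne_zero ζ.2
      apply mul_left_cancel₀ h4
      rw [mul_one, ← h1]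
    rw [h3, mul_one] at h2
    exact h2
  refine ⟨fun g => ((ζ : Δ ⧸ N → ℂ) ∘ mk) g * ((δ ^ j) g : ℂˣ),
    Cfsg.Agent.CharactersDeep.ExtUnique.isIrr_mul_hom (isIrr_comp mk hmks ζ.2) (δ ^ j), ?_, ?_⟩
  · intro z hz
    have hz' : z ∈ Subgroup.center Δ := hZ hz
    have hzcard : (⟨z, hz⟩ : Z) ^ (p ^ a * n) = 1 := by
      rw [hnZ]
      exact pow_card_eq_one'
    have hzc : z ^ (p ^ a * n) = 1 := congrArg Subtype.val hzcard
    -- the regular part
    have hreg : ¬ p ∣ orderOf (mk (z ^ s)) := by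
      have h1 : (mk (z ^ s)) ^ n = 1 := by
        rw [← map_pow, ← pow_mul]
        obtain ⟨t, ht⟩ := hj1
        have h2 : s * n = (p ^ a * n) * (p ^ b * t) := by rw [hs, ht]; ring
        rw [h2, pow_mul, hzc, one_pow, map_one]
      intro h2
      have h3 : p ∣ n := h2.trans (orderOf_dvd_of_pow_eq_one h1)
      exact hpp.one_lt.ne' (Nat.dvd_one.1 (by
        have := Nat.dvd_gcd h3 (dvd_refl p)
        rwa [hncop] at this))
    -- the p-part
    have hpart : f (⟨z, hz⟩ * ((⟨z, hz⟩ : Z) ^ s)⁻¹) ∈ D := by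
      refine ⟨_, hPmem _ ?_, rfl⟩
      have h1 : (⟨z, hz⟩ : Z) ^ (s * p ^ a) = (⟨z, hz⟩ : Z) ^ p ^ a := by
        rw [pow_eq_pow_iff_modEq]
        have h2 : s * p ^ a ≡ 1 * p ^ a [MOD n * p ^ a] := Nat.ModEq.mul_right' (p ^ a) hj2
        rw [one_mul] at h2
        exact h2.of_dvd (orderOf_dvd_of_pow_eq_one (by rw [mul_comm]; exact hzcard))
      have hcz : Commute (⟨z, hz⟩ : Z) ((⟨z, hz⟩ : Z) ^ s)⁻¹ := hcommZ _ _
      rw [hcz.mul_pow, inv_pow, ← pow_mul, h1, mul_inv_cancel]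
    have hdec : mk z = mk (z ^ s) * f (⟨z, hz⟩ * ((⟨z, hz⟩ : Z) ^ s)⁻¹) := by
      change mk z = mk (z ^ s) * mk (z * (z ^ s)⁻¹)
      rw [← map_mul]
      congr 1
      have : z ^ s * (z * (z ^ s)⁻¹) = z * (z ^ s * (z ^ s)⁻¹) := by
        rw [← mul_assoc, ← mul_assoc, ← pow_succ, ← pow_succ']
      rw [this, mul_inv_cancel, mul_one]
    have e1 : (ζ : Δ ⧸ N → ℂ) (mk z) = η (z ^ s) := by
      rw [hdec, hζmul _ _ hpart, hζ _ hreg, hβ]
      rfl
    have e2 : η (z ^ s) = η 1 * (c' (⟨z, hz'⟩ ^ s) : ℂ) := by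
      have h1 := hc' 1 (⟨z, hz'⟩ ^ s)
      rw [one_mul] at h1
      exact h1
    have e3 : ((δ ^ j) z : ℂˣ) = c ⟨z, hz'⟩ ^ s := by
      rw [MonoidHom.pow_apply]
      have h1 := hδ ⟨z, hz'⟩
      change δ z = _ at h1
      rw [h1, ← pow_mul]
    have e4 := hcc ⟨z, hz'⟩ hz
    change (ζ : Δ ⧸ N → ℂ) (mk z) * (((δ ^ j) z : ℂˣ) : ℂ) = (ζ : Δ ⧸ N → ℂ) (mk 1) * (((δ ^ j) 1 : ℂˣ) : ℂ)
    rw [e1, e2, e3, map_one, map_one, Units.val_one, mul_one, hζ1, hm, hm', map_pow, Units.val_pow_eq_pow_val,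
      Units.val_pow_eq_pow_val, mul_assoc, ← mul_pow, mul_comm (c' _ : ℂ), e4, one_pow, mul_one]
  · change (ζ : Δ ⧸ N → ℂ) (mk 1) * (((δ ^ j) 1 : ℂˣ) : ℂ) = _
    rw [map_one, map_one, Units.val_one, mul_one, hζ1]

end core

/-- **The invariant case** (`G` need not be perfect). -/
theorem invariant_case' {G : Type u} [Group G] [Finite G] {p : ℕ} [hp : Fact p.Prime] (M : Subgroup G) [hMn : M.Normal]
    [Fintype M] {θ : M → ℂ} {χ : G → ℂ} (hθ : IsIrrCharacter M θ) (hχ : IsIrrCharacter G χ)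
    (hinv : ∀ (g : G) (n : M), θ (MulAut.conjNormal g n) = θ n) (h0 : classInner (fun n : M => χ n) θ ≠ 0)
    (hd : charDegree θ = pt p M) (hd' : charDegree χ = pt p G) : HasDeg (pt p (G ⧸ M)) G := by
  classical
  have hpp : p.Prime := hp.out
  have hC : Cfsg.Agent.H595.Count.CInv M θ := fun g n => hinv g n
  obtain ⟨Δ, _, _, π, s, χR, hcov⟩ := Cfsg.Agent.H595.Triple.exists_cov M ⟨θ, hθ⟩ hC
  haveI := hcov.normal
  haveI : Fintype s.range := Fintype.ofFinite _
  set N : Subgroup Δ := s.range with hN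
  set Z : Subgroup Δ := π.ker with hZ
  have hsinj : Function.Injective s := by
    intro x y hxy
    apply Subtype.ext
    rw [← hcov.section_ x, ← hcov.section_ y, hxy]
  have hdisj : Disjoint Z N := by
    rw [Subgroup.disjoint_def]
    rintro _ hx ⟨n, rfl⟩
    have h1 : π (s n) = 1 := hx
    rw [hcov.section_] at h1
    have h2 : n = 1 := Subtype.ext h1
    rw [h2, map_one]
  let e : M ≃* N := MonoidHom.ofInjective hsinj
  have he : ∀ m : M, ((e m : N) : Δ) = s m := fun m => rfl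
  have hθR : ∀ m : M, (fun n : N => χR n) (e m) = θ m := fun m => by
    change χR (s m) = θ m
    exact hcov.ext m
  have hθN : IsIrrCharacter N (fun n : N => χR n) := by
    have h1 : (fun n : N => χR n) = θ ∘ e.symm := by
      funext n
      obtain ⟨m, rfl⟩ := e.surjective n
      rw [Function.comp_apply, e.symm_apply_apply]
      exact hθR m
    rw [h1]
    exact isIrr_comp e.symm.toMonoidHom e.symm.surjective hθ
  have hχπ : IsIrrCharacter Δ (χ ∘ π) := isIrr_comp π hcov.surj hχ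
  have hχZ : ∀ z ∈ Z, (χ ∘ π) z = (χ ∘ π) 1 := by
    intro z hz
    have h1 : π z = 1 := hz
    rw [Function.comp_apply, Function.comp_apply, h1, map_one]
  have hcard : Nat.card M = Nat.card N := Nat.card_congr e.toEquiv
  have h0' : classInner (fun n : N => (χ ∘ π) n) (fun n : N => χR n) ≠ 0 := by
    have h1 : classInner (fun n : N => (χ ∘ π) n) (fun n : N => χR n) = classInner (fun n : M => χ n) θ := by
      unfold classInner
      rw [← hcard]
      congr 1
      symm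
      refine Fintype.sum_equiv e.toEquiv _ _ fun m => ?_
      have h2 : χ (π (s m)) = χ m := by rw [hcov.section_]
      have h3 : χR (s m) = θ m := hcov.ext m
      change χ m * conj (θ m) = χ (π (s m)) * conj (χR (s m))
      rw [h2, h3]
    rw [h1]
    exact h0
  have hθ1 : χR 1 = ((p ^ (Nat.card M).factorization p : ℕ) : ℂ) := by
    obtain ⟨k, -, hk⟩ := isIrr_apply_one hθ
    have h1 := Cfsg.Agent.Blocks.CentralProduct.charDegree_eq hk
    rw [hd] at h1
    have h2 : χR (s 1) = θ 1 := hcov.ext 1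
    rw [map_one] at h2
    rw [h2, hk, ← h1]
  have hχ1 : (χ ∘ π) 1 = ((p ^ (Nat.card G).factorization p : ℕ) : ℂ) := by
    obtain ⟨k, -, hk⟩ := isIrr_apply_one hχ
    have h1 := Cfsg.Agent.Blocks.CentralProduct.charDegree_eq hk
    rw [hd'] at h1
    rw [Function.comp_apply, map_one, hk, ← h1]
  have hcardΔ : Nat.card Δ = Nat.card G * Nat.card Z := by
    rw [Subgroup.card_eq_card_quotient_mul_card_subgroup Z]
    congr 1
    exact Nat.card_congr (QuotientGroup.quotientKerEquivOfSurjective π hcov.surj).toEquiv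
  have hidx : N.index * Nat.card M = Nat.card G * Nat.card Z := by
    rw [hcard, Subgroup.index_mul_card, hcardΔ]
  have hG0 : Nat.card G ≠ 0 := Nat.card_pos.ne'
  have hM0 : Nat.card M ≠ 0 := Nat.card_pos.ne'
  have hZ0 : Nat.card Z ≠ 0 := Nat.card_pos.ne'
  have hnum : (Nat.card G).factorization p + (Nat.card Z).factorization p =
      (Nat.card M).factorization p + N.index.factorization p := by
    have h1 : (N.index * Nat.card M).factorization p = (Nat.card G * Nat.card Z).factorization p := by rw [hidx]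
    rw [Nat.factorization_mul Subgroup.index_ne_zero_of_finite hM0, Nat.factorization_mul hG0 hZ0,
      Finsupp.add_apply, Finsupp.add_apply] at h1
    omega
  obtain ⟨ζ, hζ, hζZ, hζ1⟩ := twist_core p Z N hcov.ker_le hdisj hcov.irr hθN hχπ hχZ h0' hθ1 hχ1 hnum
  -- descend to `G`
  obtain ⟨ξ, hξ⟩ : ∃ ξ : IrrCharacter (Δ ⧸ Z), ζ = (ξ : Δ ⧸ Z → ℂ) ∘ QuotientGroup.mk := by
    haveI : Fintype Z := Fintype.ofFinite _
    refine Cfsg.Agent.Blocks.Deflate.exists_deflation Z ζ hζ ?_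
    have h1 : ∀ n : Z, ζ n = ζ 1 := fun n => hζZ n n.2
    rw [Finset.sum_congr rfl fun n _ => h1 n, Finset.sum_const, nsmul_eq_mul]
    exact mul_ne_zero (Nat.cast_ne_zero.2 (Finset.card_ne_zero.2 ⟨1, Finset.mem_univ _⟩))
      (isIrr_apply_one_ne_zero hζ)
  let q : Δ ⧸ Z ≃* G := QuotientGroup.quotientKerEquivOfSurjective π hcov.surj
  refine ⟨⟨(ξ : Δ ⧸ Z → ℂ) ∘ q.symm, isIrr_comp q.symm.toMonoidHom q.symm.surjective ξ.2⟩, ?_⟩
  refine Cfsg.Agent.Blocks.CentralProduct.charDegree_eq ?_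
  have h1 : (ξ : Δ ⧸ Z → ℂ) 1 = ζ 1 := by
    rw [hξ]
    rfl
  have h2 : (Nat.card (G ⧸ M)).factorization p = (Nat.card G).factorization p - (Nat.card M).factorization p := by
    have h3 := Subgroup.card_eq_card_quotient_mul_card_subgroup M
    rw [h3, Nat.factorization_mul Nat.card_pos.ne' hM0, Finsupp.add_apply, Nat.add_sub_cancel]
  change (ξ : Δ ⧸ Z → ℂ) (q.symm 1) = _
  rw [map_one, h1, hζ1, ← h2]

/-- **The invariant case**, the statement of DM03. -/
theorem invariant_case {G : Type u} [Group G] [Finite G] {p : ℕ} [Fact p.Prime] (_hperf : Group.IsPerfect G)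
    (M : Subgroup G) [M.Normal] [Fintype M] {θ : M → ℂ} {χ : G → ℂ} (hθ : IsIrrCharacter M θ)
    (hχ : IsIrrCharacter G χ) (hinv : ∀ (g : G) (n : M), θ (MulAut.conjNormal g n) = θ n)
    (h0 : classInner (fun n : M => χ n) θ ≠ 0) (hd : charDegree θ = pt p M) (hd' : charDegree χ = pt p G) :
    HasDeg (pt p (G ⧸ M)) G := invariant_case' M hθ hχ hinv h0 hd hd'

end Cfsg.Agent.H355.DM
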